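import Cfsg.Agent.H722.HT.Frame
import Cfsg.Agent.H199.PslAut
import Cfsg.Agent.H183.OutPSL
import Cfsg.Agent.S0243
import Cfsg.Agent.H454.PslThree

/-!
# S4933, part (O): `PSL_n(q)` (helper722)
-/

set_option autoImplicit false
set_option linter.unusedSectionVars false

open Subgroup Polynomial

namespace Cfsg.Agent.H722.HT

open Cfsg Cfsg.Agent.H316.HT Cfsg.Agent.H37.HT

section elt

variable {F : Type} [Field F] {n : ℕ}

/-- a block in the corner -/
theorem exists_corner {d : ℕ} (hd : d ≤ n) (A : Matrix (Fin d) (Fin d) F) (hdet : A.det = 1) {k : ℕ} (hk : A ^ k = 1) :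
    ∃ t : Matrix.SpecialLinearGroup (Fin n) F, t ^ k = 1 ∧
      ev (t : Matrix (Fin n) (Fin n) F).charpoly = ev A.charpoly + Multiset.replicate (n - d) 1 := by
  let e : Fin d ⊕ Fin (n - d) ≃ Fin n := finSumFinEquiv.trans (finCongr (by omega))
  let B : Matrix (Fin d ⊕ Fin (n - d)) (Fin d ⊕ Fin (n - d)) F := Matrix.fromBlocks A 0 0 1
  have hB : ∀ k : ℕ, B ^ k = Matrix.fromBlocks (A ^ k) 0 0 1 := by
    intro k
    induction k with
    | zero => rw [pow_zero, pow_zero, Matrix.fromBlocks_one]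
    | succ k ih => rw [pow_succ, ih, Matrix.fromBlocks_multiply, pow_succ]; simp
  have hBdet : (Matrix.reindex e e B).det = 1 := by
    rw [Matrix.det_reindex_self]
    show (Matrix.fromBlocks A 0 0 1).det = 1
    rw [Matrix.det_fromBlocks_zero₂₁, hdet, Matrix.det_one, one_mul]
  refine ⟨⟨Matrix.reindex e e B, hBdet⟩, ?_, ?_⟩
  · apply Subtype.ext
    show (Matrix.reindex e e B) ^ k = 1
    have h1 : (Matrix.reindex e e B) ^ k = Matrix.reindex e e (B ^ k) :=
      (map_pow (Matrix.reindexRingEquiv F e) B k).symm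
    rw [h1, hB, hk, Matrix.fromBlocks_one, Matrix.reindex_apply, Matrix.submatrix_one_equiv]
  · show ev (Matrix.reindex e e B).charpoly = _
    rw [Matrix.charpoly_reindex]
    show ev (Matrix.fromBlocks A 0 0 1).charpoly = _
    rw [Matrix.charpoly_fromBlocks_zero₂₁, Matrix.charpoly_one, Fintype.card_fin, ev, ev, Polynomial.map_mul,
      Polynomial.roots_mul, Polynomial.map_pow, Polynomial.map_sub, Polynomial.map_X, Polynomial.map_one,
      Polynomial.roots_pow, ← C_1, Polynomial.roots_X_sub_C, Multiset.nsmul_singleton]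
    exact mul_ne_zero ((A.charpoly_monic.map _).ne_zero) (((1 : Matrix (Fin (n-d)) (Fin (n-d)) F).charpoly_monic.map _).ne_zero ∘ fun h => by
      rw [Matrix.charpoly_one, Fintype.card_fin]; exact h)

/-- the orbit of `ω` under the `q`-th power -/
theorem pow_eq_iff {K : Type} [Field K] {p q e m : ℕ} [hp : Fact p.Prime] (hq : 1 ≤ q)
    (he : orderOf ((q : ℕ) : ZMod p) = e) (h1 : p ^ (m + 1) ∣ q ^ e - 1) {ω : K} (hω : IsPrimitiveRoot ω (p ^ (m + 1)))
    (d : ℕ) : ω ^ q ^ d = ω ↔ e ∣ d := by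
  have hω0 : ω ≠ 0 := hω.ne_zero (pow_ne_zero _ hp.out.ne_zero)
  have hmod : ω ^ q ^ d = ω ↔ p ^ (m + 1) ∣ q ^ d - 1 := by
    rw [← hω.pow_eq_one_iff_dvd]
    have h2 : ω ^ q ^ d = ω ^ (q ^ d - 1) * ω := by
      rw [← pow_succ, Nat.sub_add_cancel (Nat.one_le_pow _ _ hq)]
    rw [h2]
    constructor
    · intro h
      exact mul_right_cancel₀ hω0 (by rw [h, one_mul])
    · intro h
      rw [h, one_mul]
  rw [hmod, ← he, orderOf_dvd_iff_pow_eq_one]
  constructor
  · intro h
    have h3 : p ∣ q ^ d - 1 := (dvd_pow_self p (Nat.succ_ne_zero m)).trans h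
    rw [← ZMod.natCast_eq_zero_iff, Nat.cast_sub (Nat.one_le_pow _ _ hq)] at h3
    push_cast at h3
    exact sub_eq_zero.1 h3
  · intro h
    rw [← orderOf_dvd_iff_pow_eq_one, he] at h
    obtain ⟨k, rfl⟩ := h
    rw [pow_mul]
    exact h1.trans (by simpa using Nat.sub_dvd_pow_sub_pow (q ^ e) 1 k)

theorem dvd_of_dvd_pow_sub_one {p q e d : ℕ} [hp : Fact p.Prime] (hq : 1 ≤ q)
    (he : orderOf ((q : ℕ) : ZMod p) = e) (h : p ∣ q ^ d - 1) : e ∣ d := by
  rw [← he, orderOf_dvd_iff_pow_eq_one]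
  rw [← ZMod.natCast_eq_zero_iff, Nat.cast_sub (Nat.one_le_pow _ _ hq)] at h
  push_cast at h
  exact sub_eq_zero.1 h

theorem pow_mod_eq_one {p q e m i : ℕ} [hp : Fact p.Prime] (hq : 1 ≤ q)
    (he : orderOf ((q : ℕ) : ZMod p) = e) (hm : 1 ≤ m) (hi : i < e) (h : q ^ i % p ^ m = 1) : i = 0 := by
  have h1 : p ^ m ∣ q ^ i - 1 := by
    have := Nat.div_add_mod (q ^ i) (p ^ m)
    rw [h] at this
    exact ⟨q ^ i / p ^ m, by omega⟩
  have h2 := dvd_of_dvd_pow_sub_one hq he ((dvd_pow_self p (by omega)).trans h1)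
  rcases Nat.eq_zero_or_pos i with h3 | h3
  · exact h3
  · have := Nat.le_of_dvd h3 h2
    omega

/-- the count in the orbit of `q` -/
theorem count_orbit {p q e m : ℕ} [hp : Fact p.Prime] (hq : 1 ≤ q) (he : orderOf ((q : ℕ) : ZMod p) = e) (he0 : 0 < e)
    (hm : 1 ≤ m) : (((Multiset.range e).map fun i => q ^ i).filter fun k => k % p ^ m = 1).card = 1 := by
  have h1 : 1 % p ^ m = 1 := Nat.mod_eq_of_lt (Nat.one_lt_pow (by omega) hp.out.one_lt)
  rw [Multiset.filter_map, Multiset.card_map]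
  have h2 : (Multiset.range e).filter ((fun k => k % p ^ m = 1) ∘ fun i => q ^ i) = (Multiset.range e).filter (fun i => i = 0) := by
    apply Multiset.filter_congr
    intro i hi
    rw [Multiset.mem_range] at hi
    constructor
    · intro h
      exact pow_mod_eq_one hq he hm hi h
    · rintro rfl
      simpa using h1
  rw [h2, Multiset.filter_eq', Multiset.card_replicate, Multiset.count_eq_one_of_mem (Multiset.nodup_range e)
    (Multiset.mem_range.2 he0)]

theorem filter_zero {p m k : ℕ} : (Multiset.filter (fun k => k % p ^ m = 1) (Multiset.replicate k 0)) = 0 := by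
  rw [Multiset.filter_eq_nil]
  intro a ha
  rw [Multiset.eq_of_mem_replicate ha, Nat.zero_mod]
  exact zero_ne_one

theorem not_dvd_orbit {p q e m k : ℕ} [hp : Fact p.Prime] (hq : 1 ≤ q) (he : orderOf ((q : ℕ) : ZMod p) = e) (he0 : 0 < e)
    (hm : 1 ≤ m) : ¬ p ∣ ((((Multiset.range e).map fun i => q ^ i) + Multiset.replicate k 0).filter
      fun k => k % p ^ m = 1).card := by
  rw [Multiset.filter_add, filter_zero, add_zero, count_orbit hq he he0 hm]
  exact fun h => hp.out.one_lt.ne' (Nat.dvd_one.1 h)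

theorem not_dvd_pair {p m k : ℕ} [hp : Fact p.Prime] (hp2 : p ≠ 2) (hm : 1 ≤ m) :
    ¬ p ∣ ((({1, p ^ (m + 1) - 1} : Multiset ℕ) + Multiset.replicate k 0).filter fun k => k % p ^ m = 1).card := by
  have hpp : 1 < p ^ (m + 1) := Nat.one_lt_pow (by omega) hp.out.one_lt
  have hpm : 2 < p ^ m := by
    have h4 : p ^ 1 ≤ p ^ m := Nat.pow_le_pow_right hp.out.pos hm
    have := hp.out.two_le
    rw [pow_one] at h4
    omega
  have h4 : 1 % p ^ m = 1 := Nat.mod_eq_of_lt (by omega)
  have h5 : (p ^ (m + 1) - 1) % p ^ m ≠ 1 := by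
    intro h
    have h6 : p ^ (m + 1) - 1 = p ^ m * (p - 1) + (p ^ m - 1) := by
      rw [pow_succ, Nat.mul_sub, mul_one]
      have : p ^ m * 1 ≤ p ^ m * p := Nat.mul_le_mul_left _ hp.out.pos
      omega
    rw [h6, Nat.mul_add_mod, Nat.mod_eq_of_lt (by omega)] at h
    omega
  have h7 : (Multiset.filter (fun k => k % p ^ m = 1) ({1, p ^ (m + 1) - 1} : Multiset ℕ)).card = 1 := by
    rw [Multiset.insert_eq_cons, Multiset.filter_cons, Multiset.filter_singleton, if_pos h4, if_neg h5]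
    rfl
  rw [Multiset.filter_add, filter_zero, add_zero, h7]
  exact fun h => hp.out.one_lt.ne' (Nat.dvd_one.1 h)

theorem isIntegral_of_root {ω : AlgebraicClosure F} : IsIntegral F ω :=
  Algebra.IsIntegral.isIntegral ω

/-- **the element `y` of `SL_n(q)`** -/
theorem elt_sl [Fintype F] {p : ℕ} [hp : Fact p.Prime] (hp2 : p ≠ 2) (hn : 2 ≤ n)
    (hd : p ∣ Nat.card (Matrix.ProjectiveSpecialLinearGroup (Fin n) F)) (hpq : ¬ p ∣ Fintype.card F) :
    Elt p (Fintype.card F) fun t : Matrix.SpecialLinearGroup (Fin n) F => (t : Matrix (Fin n) (Fin n) F).charpoly := by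
  classical
  intro e m ω he0 he hm h1 h2 hω
  have hq : 1 ≤ Fintype.card F := Fintype.card_pos
  have hen : e ≤ n := by
    have h3 := Cfsg.Agent.S0243.result (F := F) rfl n hn
    have h4 : p ∣ ∏ i : Fin n, (Fintype.card F ^ n - Fintype.card F ^ (i : ℕ)) := by
      rw [← h3]
      exact (hd.mul_left _).mul_left _
    obtain ⟨i, -, hi⟩ := (Prime.dvd_finsetProd_iff hp.out.prime _).1 h4
    have h5 : Fintype.card F ^ n - Fintype.card F ^ (i : ℕ) =
        Fintype.card F ^ (i : ℕ) * (Fintype.card F ^ (n - i) - 1) := by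
      rw [Nat.mul_sub, ← pow_add, mul_one, Nat.add_sub_cancel' i.2.le]
    rw [h5, hp.out.dvd_mul] at hi
    rcases hi with hi | hi
    · exact absurd (hp.out.dvd_of_dvd_pow hi) hpq
    · have h6 := dvd_of_dvd_pow_sub_one hq he hi
      exact (Nat.le_of_dvd (by have := i.2; omega) h6).trans (Nat.sub_le _ _)
  have hkey := pow_eq_iff hq he h1 hω
  have hint : IsIntegral F ω := isIntegral_of_root
  rcases Nat.lt_or_ge 1 e with he1 | he1
  · obtain ⟨A, hA, hAk⟩ := exists_matrix hint hkey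
    have hdet : A.det = 1 := by
      have h3 : A.det ^ p ^ (m + 1) = 1 := by rw [← Matrix.det_pow, hAk _ hω.pow_eq_one, Matrix.det_one]
      have h0 : A.det ≠ 0 := by
        intro h
        rw [h, zero_pow (pow_ne_zero _ hp.out.ne_zero)] at h3
        exact zero_ne_one h3
      have h4 : A.det ^ (Fintype.card F - 1) = 1 := FiniteField.pow_card_sub_one_eq_one _ h0
      have h5 : (p ^ (m + 1)).Coprime (Fintype.card F - 1) := by
        apply Nat.Coprime.pow_left
        rw [hp.out.coprime_iff_not_dvd]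
        intro h
        have h6 := dvd_of_dvd_pow_sub_one (d := 1) hq he (by rwa [pow_one])
        have := Nat.le_of_dvd one_pos h6
        omega
      have h6 := orderOf_dvd_of_pow_eq_one h3
      have h7 := orderOf_dvd_of_pow_eq_one h4
      have h8 := Nat.dvd_gcd h6 h7
      rw [h5.gcd_eq_one] at h8
      exact orderOf_eq_one_iff.1 (Nat.dvd_one.1 h8)
    obtain ⟨t, ht, htc⟩ := exists_corner hen A hdet (hAk _ hω.pow_eq_one)
    refine ⟨t, ((Multiset.range e).map fun i => Fintype.card F ^ i) + Multiset.replicate (n - e) 0, ⟨_, ht⟩, ?_, ?_⟩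
    · rw [htc, hA, ev, roots_minpoly hint hkey, Multiset.map_add, Multiset.map_map, Multiset.map_replicate, pow_zero]
      rfl
    · exact not_dvd_orbit hq he he0 hm
  · obtain rfl : e = 1 := by omega
    obtain ⟨a, ha⟩ : ∃ a : F, algebraMap F (AlgebraicClosure F) a = ω := by
      exact minpoly.natDegree_eq_one_iff.1 (natDegree_minpoly hint hkey)
    have ha1 : a ^ p ^ (m + 1) = 1 := by
      apply (algebraMap F (AlgebraicClosure F)).injective
      rw [map_pow, ha, hω.pow_eq_one, map_one]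
    have ha0 : a ≠ 0 := by
      rintro rfl
      rw [zero_pow (pow_ne_zero _ hp.out.ne_zero)] at ha1
      exact zero_ne_one ha1
    have hpp : 1 < p ^ (m + 1) := Nat.one_lt_pow (by omega) hp.out.one_lt
    let A : Matrix (Fin 2) (Fin 2) F := Matrix.diagonal ![a, a⁻¹]
    have hdet : A.det = 1 := by
      rw [Matrix.det_diagonal, Fin.prod_univ_two]
      exact mul_inv_cancel₀ ha0
    have hAk : A ^ p ^ (m + 1) = 1 := by
      rw [Matrix.diagonal_pow, ← Matrix.diagonal_one]
      congr 1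
      funext i
      fin_cases i
      · simpa using ha1
      · simpa using ha1
    obtain ⟨t, ht, htc⟩ := exists_corner hn A hdet hAk
    refine ⟨t, {1, p ^ (m + 1) - 1} + Multiset.replicate (n - 2) 0, ⟨_, ht⟩, ?_, ?_⟩
    · have h3 : ω ^ (p ^ (m + 1) - 1) = ω⁻¹ := by
        apply eq_inv_of_mul_eq_one_left
        rw [← pow_succ, Nat.sub_add_cancel hpp.le, hω.pow_eq_one]
      rw [htc, Matrix.charpoly_diagonal, Fin.prod_univ_two, Multiset.map_add, Multiset.map_replicate, pow_zero, ev,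
        Polynomial.map_mul, Polynomial.roots_mul (by
          rw [← Polynomial.map_mul]
          exact (((monic_X_sub_C _).mul (monic_X_sub_C _)).map _).ne_zero)]
      simp only [Matrix.cons_val_zero, Matrix.cons_val_one, Polynomial.map_sub, Polynomial.map_X, Polynomial.map_C,
        roots_X_sub_C, ha, map_inv₀, Multiset.insert_eq_cons, Multiset.map_cons, Multiset.map_singleton, pow_one, h3]
      rfl
    · exact not_dvd_pair hp2 hm

end elt

section aut

open Cfsg.Agent.ClassicalGeometry.AutPSL.Root Cfsg.Agent.ClassicalGeometry.AutPSL.Auto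
  Cfsg.Agent.ClassicalGeometry.AutPSL.Main Cfsg.Agent.H199.PslAut

variable {F : Type} [Field F] [Fintype F] {n : ℕ}

/-- the characteristic polynomial on `SL_n` -/
noncomputable abbrev chi (t : Matrix.SpecialLinearGroup (Fin n) F) : F[X] := (t : Matrix (Fin n) (Fin n) F).charpoly

theorem isP_map {G H : Type} [Group G] [Group H] {p : ℕ} (φ : G →* H) {x : G} (hx : IsP p x) : IsP p (φ x) := by
  obtain ⟨k, hk⟩ := hx
  exact ⟨k, by rw [← map_pow, hk, map_one]⟩

theorem cov_Psi (p : ℕ) (g : GL (Fin n) F) :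
    Cov p (QuotientGroup.mk' (Subgroup.center (Matrix.SpecialLinearGroup (Fin n) F))) chi (RingHom.id F) (Psi n F g) := by
  intro t ht
  have h1 : ((cj g t : Matrix.SpecialLinearGroup (Fin n) F) : Matrix (Fin n) (Fin n) F).charpoly =
      (t : Matrix (Fin n) (Fin n) F).charpoly := by
    have h2 : ((cj g t : Matrix.SpecialLinearGroup (Fin n) F) : Matrix (Fin n) (Fin n) F) =
        (g : Matrix (Fin n) (Fin n) F) * (t : Matrix (Fin n) (Fin n) F) * (g : Matrix (Fin n) (Fin n) F)⁻¹ := by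
      rw [← Matrix.coe_units_inv]
      rfl
    rw [h2, Matrix.charpoly_units_conj]
  exact ⟨cj g t, isP_map (cj g).toMonoidHom ht, rfl, h1.trans (Polynomial.map_id).symm⟩

theorem cov_phi (p : ℕ) (σ : F ≃+* F) :
    Cov p (QuotientGroup.mk' (Subgroup.center (Matrix.SpecialLinearGroup (Fin n) F))) chi (σ : F →+* F) (phi n F σ) := by
  intro t ht
  refine ⟨fld σ t, isP_map (fld σ).toMonoidHom ht, rfl, ?_⟩
  exact Matrix.charpoly_map _ _

/-- ring automorphisms of a finite field commute with the Frobenius map -/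
theorem comm_frob {r : ℕ} {σ : F ≃+* F} (hσ : ∀ a, σ a = a ^ r) (τ : F ≃+* F) : τ * σ = σ * τ := by
  apply RingEquiv.ext
  intro a
  show τ (σ a) = σ (τ a)
  rw [hσ, hσ, map_pow]

theorem hc_psl {r : ℕ} (p : ℕ) (hn : 2 ≤ n) {σ : F ≃+* F} (hσ : ∀ a, σ a = a ^ r)
    (g : MulAut (Matrix.ProjectiveSpecialLinearGroup (Fin n) F)) :
    ∃ h : MulAut (Matrix.ProjectiveSpecialLinearGroup (Fin n) F), g * phi n F σ * g⁻¹ = h * phi n F σ ∧
      Cov p (QuotientGroup.mk' (Subgroup.center (Matrix.SpecialLinearGroup (Fin n) F))) chi (RingHom.id F) h := by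
  have key : ∀ (a : GL (Fin n) F) (b : MulAut (Matrix.ProjectiveSpecialLinearGroup (Fin n) F)),
      b * phi n F σ = phi n F σ * b → ∃ h : MulAut (Matrix.ProjectiveSpecialLinearGroup (Fin n) F),
        Psi n F a * b * phi n F σ * (Psi n F a * b)⁻¹ = h * phi n F σ ∧
        Cov p (QuotientGroup.mk' (Subgroup.center (Matrix.SpecialLinearGroup (Fin n) F))) chi (RingHom.id F) h := by
    intro a b hb
    refine ⟨Psi n F (a * (mapGL σ a)⁻¹), ?_, cov_Psi p _⟩
    have h1 : Psi n F a * b * phi n F σ * (Psi n F a * b)⁻¹ = Psi n F a * (b * phi n F σ * b⁻¹) * (Psi n F a)⁻¹ := by group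
    have h2 : phi n F σ * (Psi n F a)⁻¹ = (Psi n F (mapGL σ a))⁻¹ * phi n F σ := by
      rw [eq_inv_mul_iff_mul_eq, ← mul_assoc, ← phi_mul_Psi, mul_assoc, mul_inv_cancel, mul_one]
    rw [h1, hb, mul_inv_cancel_right, mul_assoc, h2, ← mul_assoc, map_mul, map_inv]
  rcases exists_form hn g with ⟨a, τ, rfl⟩ | ⟨-, a, τ, rfl⟩
  · apply key
    rw [← map_mul, ← map_mul, comm_frob hσ]
  · rw [mul_assoc (Psi n F a)]
    apply key
    rw [mul_assoc, iot_mul_phi, ← mul_assoc, ← map_mul, comm_frob hσ, map_mul, mul_assoc]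

theorem card_center (hn : 2 ≤ n) : Nat.card (Subgroup.center (Matrix.SpecialLinearGroup (Fin n) F)) =
    Nat.gcd n (Fintype.card F - 1) := by
  have : Nonempty (Fin n) := ⟨⟨0, by omega⟩⟩
  rw [Nat.card_congr (Matrix.SpecialLinearGroup.center_equiv_rootsOfUnity'
    (n := Fin n) (R := F) ⟨0, by omega⟩).toEquiv, rootsOfUnity_eq_ker,
    IsCyclic.card_powMonoidHom_ker, Nat.card_units, Nat.card_eq_fintype_card, Fintype.card_fin, Nat.gcd_comm]

theorem card_out {r f : ℕ} [Fact r.Prime] (hf : 1 ≤ f) (hF : Fintype.card F = r ^ f) (hn : 2 ≤ n)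
    (hs : n = 2 → 4 ≤ Fintype.card F) :
    Nat.card (Out (Matrix.ProjectiveSpecialLinearGroup (Fin n) F)) ∣ Nat.gcd n (r ^ f - 1) * (2 * f) := by
  rcases Nat.lt_or_ge 2 n with h3 | h3
  · obtain ⟨φ, h1, -, h2⟩ := Cfsg.Agent.H183.OutPSL.out_three hf hF h3
    have h3 := Subgroup.card_mul_index φ.ker
    rw [h2, Subgroup.index_ker, MonoidHom.range_eq_top.2 h1, Subgroup.card_top] at h3
    have h4 : Nat.card (Multiplicative (ZMod f × ZMod 2)) = Nat.card (ZMod f × ZMod 2) :=
      Nat.card_congr Multiplicative.toAdd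
    rw [h4, Nat.card_prod, Nat.card_zmod, Nat.card_zmod, mul_comm f] at h3
    rw [h3]
  · obtain rfl : n = 2 := by omega
    obtain ⟨φ, h1, -, h2⟩ := Cfsg.Agent.H183.OutPSL.out_two hf hF (by rw [← hF]; exact hs rfl)
    have h3 := Subgroup.card_mul_index φ.ker
    rw [h2, Subgroup.index_ker, MonoidHom.range_eq_top.2 h1, Subgroup.card_top] at h3
    have h4 : Nat.card (Multiplicative (ZMod f)) = Nat.card (ZMod f) :=
      Nat.card_congr Multiplicative.toAdd
    rw [h4, Nat.card_zmod] at h3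
    rw [← h3]
    exact Nat.mul_dvd_mul_left _ (dvd_mul_left _ _)

theorem phi_pow {r f : ℕ} (hF : Fintype.card F = r ^ f) {σ : F ≃+* F} (hσ : ∀ a, σ a = a ^ r) :
    phi n F σ ^ f = 1 := by
  have h1 : ∀ (k : ℕ) (a : F), (σ ^ k) a = a ^ r ^ k := by
    intro k
    induction k with
    | zero => intro a; rw [pow_zero, pow_zero, pow_one]; rfl
    | succ k ih =>
      intro a
      rw [pow_succ, pow_succ']
      show (σ ^ k) (σ a) = _
      rw [ih, hσ, ← pow_mul]
  rw [← map_pow]
  have h2 : σ ^ f = 1 := by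
    apply RingEquiv.ext
    intro a
    rw [h1, ← hF, FiniteField.pow_card]
    rfl
  rw [h2, map_one]

end aut

/-- **O.cl.psl** -/
theorem row_psl {p : ℕ} [hp : Fact p.Prime] (hp2 : p ≠ 2) {F : Type} [Field F] [Fintype F] {n : ℕ} (hn : 2 ≤ n)
    (hs : IsSimpleGroup (Matrix.ProjectiveSpecialLinearGroup (Fin n) F)) (hpq : ¬ p ∣ Fintype.card F)
    (hg : ¬ (p ∣ n ∧ p ∣ Fintype.card F - 1)) (hd : p ∣ Nat.card (Matrix.ProjectiveSpecialLinearGroup (Fin n) F))
    (hab : AbSyl p (Matrix.ProjectiveSpecialLinearGroup (Fin n) F)) :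
    Row p (Matrix.ProjectiveSpecialLinearGroup (Fin n) F) := by
  obtain ⟨r, hr⟩ := CharP.exists F
  have hrp : r.Prime := CharP.char_is_prime F r
  have : Fact r.Prime := ⟨hrp⟩
  obtain ⟨f, -, hF⟩ := FiniteField.card F r
  have hf : 0 < (f : ℕ) := f.2
  have hrne : r ≠ p := by
    rintro rfl
    exact hpq (by rw [hF]; exact dvd_pow_self _ hf.ne')
  have hpF : (p : F) ≠ 0 := by
    intro h
    exact hrne ((Nat.prime_dvd_prime_iff_eq hrp hp.out).1 ((CharP.cast_eq_zero_iff F r p).1 h))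
  have hg' : ¬ p ∣ Nat.gcd n (Fintype.card F - 1) := fun h =>
    hg ⟨h.trans (Nat.gcd_dvd_left _ _), h.trans (Nat.gcd_dvd_right _ _)⟩
  have hker : (QuotientGroup.mk' (Subgroup.center (Matrix.SpecialLinearGroup (Fin n) F))).ker =
      Subgroup.center (Matrix.SpecialLinearGroup (Fin n) F) := QuotientGroup.ker_mk' _
  obtain ⟨σ, hσ⟩ : ∃ σ : F ≃+* F, ∀ a, σ a = a ^ r := ⟨frobeniusEquiv F r, fun a => frobenius_def r a⟩
  obtain ⟨E, hE1, hE2⟩ := exists_ed (f := f) hF hpF hab
    (QuotientGroup.mk' (Subgroup.center (Matrix.SpecialLinearGroup (Fin n) F))) (QuotientGroup.mk'_surjective _)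
    (fun z hz x => by
      rw [hker] at hz
      exact (Subgroup.mem_center_iff.1 hz x).symm)
    (by rw [hker, card_center hn]; exact hg')
    ((Units.coeHom (Matrix (Fin n) (Fin n) F)).comp Matrix.SpecialLinearGroup.toGL)
  refine row_of_cov hp2 hrp hrne hf hF hab ?_ _ chi E hE1 hE2 ?_ (Cfsg.Agent.H199.PslAut.phi n F σ) (σ : F →+* F) hσ
    (cov_phi p σ) ⟨1, fun h => hp.out.one_lt.ne' (Nat.dvd_one.1 h), ?_⟩ (hc_psl p hn hσ)
  · have h1 := card_out hf hF hn (fun h => by subst h; rw [← Nat.card_eq_fintype_card]; exact Cfsg.Agent.H454.PslThree.four_le hs)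
    have h0 : Nat.gcd n (r ^ (f : ℕ) - 1) * (2 * f) ≠ 0 := by
      have : 0 < Nat.gcd n (r ^ (f : ℕ) - 1) := Nat.gcd_pos_of_pos_left _ (by omega)
      positivity
    have h2 := (Nat.factorization_le_iff_dvd (ne_zero_of_dvd_ne_zero h0 h1) h0).2 h1 p
    refine h2.trans ?_
    rw [← hF]
    rw [Nat.factorization_mul (fun h => hg' (by rw [h]; exact dvd_zero _)) (by omega), Finsupp.add_apply,
      Nat.factorization_eq_zero_of_not_dvd hg', Nat.factorization_mul (by norm_num) hf.ne', Finsupp.add_apply,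
      Nat.factorization_eq_zero_of_not_dvd (fun h => hp2 ((Nat.prime_dvd_prime_iff_eq hp.out Nat.prime_two).1 h))]
    omega
  · rw [← hF]
    exact elt_sl hp2 hn hd hpq
  · rw [one_mul, phi_pow hF hσ]
    exact Subgroup.one_mem _

end Cfsg.Agent.H722.HT
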